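import Cfsg.Agent.H641.TC6.Tor
import Cfsg.Agent.H56.Exc.BigRows
import Cfsg.Agent.H903.FFour.Val
import Cfsg.Agent.H983.ElG.KArith

/-!
# The isolated tori of `F₄(q)`, `q` even

* `t12`, `t8` : for every even `q ≥ 4` (`T12`: `3 ∤ q` is automatic for `q = 2 ^ f`): a cyclic subgroup of order
  `q⁴ - q² + 1` resp. `q⁴ + 1`, the centralizer of each of its elements `≠ 1`, `|N(T) : T| = 12` resp. `8`;
* `T12`, `T8` : `q = 4, 8, 16, 64`, in the form of `H903.FFour.T12`, with the constant values `0`, `± 1`.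
-/

set_option autoImplicit false

open Cfsg Cfsg.Lie Subgroup

namespace Cfsg.Agent.H406.FE

open Cfsg.Agent.H641.TC6 Cfsg.Agent.H56.Exc
open Cfsg.Agent.H436 (Prim exists_prim)

universe u

variable {F : Type u} [Field F] [Fintype F] {q : ℕ}

theorem int_zero {r : ℕ} {x : ℤ} (h : (r : ℤ) ∣ x) : (x : ZMod r) = 0 :=
  (ZMod.intCast_zmod_eq_zero_iff_dvd x r).2 h

/-- the primes of `q⁴ + 1`, `q` even -/
theorem prim8 {r : ℕ} (hr : r.Prime) (h2 : q % 2 = 0) (hq : 1 ≤ q) (h : r ∣ q ^ 4 + 1) : Prim q 8 r := by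
  have := Fact.mk hr
  have hz : (q : ZMod r) ^ 4 + 1 = 0 := by
    rw [← ZMod.natCast_eq_zero_iff] at h
    push_cast at h
    exact h
  have hr2 : r ≠ 2 := by
    rintro rfl
    have h4 : (q : ZMod 2) = 0 := by
      rw [ZMod.natCast_eq_zero_iff]; exact Nat.dvd_of_mod_eq_zero h2
    rw [h4] at hz
    norm_num at hz
  have h2z : (2 : ZMod r) ≠ 0 := by
    intro h5
    have h6 : r ∣ 2 := by rw [← ZMod.natCast_eq_zero_iff]; exact_mod_cast h5
    exact hr2 ((Nat.prime_dvd_prime_iff_eq hr Nat.prime_two).1 h6)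
  refine H983.KG2.prim_of_order hr hq (by norm_num) ?_
  have := orderOf_eq_prime_pow (p := 2) (n := 2) (x := (q : ZMod r)) (by
    intro h4
    apply h2z
    linear_combination hz - h4) (by
    linear_combination ((q : ZMod r) ^ 4 - 1) * hz)
  simpa using this

theorem three_aux : ∀ y : ZMod 3, 1 - y ^ 2 + y ^ 4 = 0 → y ≠ 0 → False := by decide

/-- the primes of `q⁴ - q² + 1` -/
theorem prim12 {r : ℕ} (hr : r.Prime) (h2 : q % 2 = 0) (h3 : ¬ 3 ∣ q) (hq : 1 ≤ q)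
    (h : (r : ℤ) ∣ 1 - (q : ℤ) ^ 2 + (q : ℤ) ^ 4) : Prim q 12 r := by
  have hf : Fact r.Prime := ⟨hr⟩
  have hz : (1 : ZMod r) - (q : ZMod r) ^ 2 + (q : ZMod r) ^ 4 = 0 := by
    have := int_zero h
    push_cast at this
    exact this
  have hr2 : r ≠ 2 := by
    rintro rfl
    have h4 : (q : ZMod 2) = 0 := by
      rw [ZMod.natCast_eq_zero_iff]; exact Nat.dvd_of_mod_eq_zero h2
    rw [h4] at hz
    norm_num at hz
  have hr3 : r ≠ 3 := by
    rintro rfl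
    have h4 : (q : ZMod 3) ≠ 0 := by rwa [Ne, ZMod.natCast_eq_zero_iff]
    exact three_aux _ hz h4
  have h2z : (2 : ZMod r) ≠ 0 := by
    intro h5
    have h6 : r ∣ 2 := by rw [← ZMod.natCast_eq_zero_iff]; exact_mod_cast h5
    exact hr2 ((Nat.prime_dvd_prime_iff_eq hr Nat.prime_two).1 h6)
  have h3z : (3 : ZMod r) ≠ 0 := by
    intro h5
    have h6 : r ∣ 3 := by rw [← ZMod.natCast_eq_zero_iff]; exact_mod_cast h5
    exact hr3 ((Nat.prime_dvd_prime_iff_eq hr Nat.prime_three).1 h6)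
  have h12 : (q : ZMod r) ^ 12 = 1 := by
    linear_combination ((q : ZMod r) ^ 8 + (q : ZMod r) ^ 6 - (q : ZMod r) ^ 2 - 1) * hz
  have h6 : (q : ZMod r) ^ 6 ≠ 1 := by
    intro h6
    apply h2z
    linear_combination (-1 : ZMod r) * h6 + ((q : ZMod r) ^ 2 + 1) * hz
  have h4 : (q : ZMod r) ^ 4 ≠ 1 := by
    intro h4
    apply h3z
    have h5 : (q : ZMod r) ^ 2 = 2 := by linear_combination h4 - hz
    have h7 : (q : ZMod r) ^ 4 = 4 := by
      rw [show (4 : ℕ) = 2 * 2 from rfl, pow_mul, h5]; norm_num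
    linear_combination h4 - h7
  refine H983.KG2.prim_of_order hr hq (by norm_num) ?_
  refine orderOf_eq_of_pow_and_pow_div_prime (by norm_num) h12 fun p hp hpd => ?_
  have hp12 : p ≤ 12 := Nat.le_of_dvd (by norm_num) hpd
  have h0 := hp.two_le
  interval_cases p
  · exact h6
  · exact h4
  all_goals first | (exfalso; revert hpd; norm_num; done) | (exfalso; revert hp; norm_num)

/-- `TorD` with `n = m` -/
theorem of_torD {G : Type u} [Group G] [Finite G] {m w : ℕ} {A T : Subgroup G} (h : TorD G m m w A T) :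
    IsCyclic ↥T ∧ (∀ a ∈ T, ∀ b ∈ T, a * b = b * a) ∧ Nat.card ↥T = m ∧
      (∀ a ∈ T, a ≠ 1 → centralizer ({a} : Set G) = T) ∧ T.relIndex (normalizer (T : Set G)) = w := by
  have hAT : A = T := Subgroup.eq_of_le_of_card_ge h.le (by rw [h.cardA, h.cardT])
  refine ⟨h.cycT, fun a ha b hb => comm_of_cyc h.cycT ha hb, h.cardT, fun a ha ha1 => h.cent a (hAT ▸ ha) ha1, ?_⟩
  have h1 := h.cardN
  rw [h.normA] at h1
  have h2 : Nat.card ↥T * T.relIndex (normalizer (T : Set G)) = Nat.card ↥(normalizer (T : Set G)) := by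
    rw [← Subgroup.relIndex_bot_left, ← Subgroup.relIndex_bot_left]
    exact Subgroup.relIndex_mul_relIndex _ _ _ bot_le le_normalizer
  rw [h.cardT, h1, mul_comm] at h2
  exact Nat.eq_of_mul_eq_mul_right (h.cardT ▸ Nat.card_pos) h2

theorem t8 (hK : Fintype.card F = q) (h2 : q % 2 = 0) (h3 : 3 ≤ q) : ∃ T : Subgroup ↥(chevF4.group F),
    IsCyclic ↥T ∧ (∀ a ∈ T, ∀ b ∈ T, a * b = b * a) ∧ Nat.card ↥T = q ^ 4 + 1 ∧
      (∀ a ∈ T, a ≠ 1 → centralizer ({a} : Set ↥(chevF4.group F)) = T) ∧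
      T.relIndex (normalizer (T : Set ↥(chevF4.group F))) = 8 := by
  have hm : ((q ^ 4 + 1 : ℕ) : ℤ) = 1 + (q : ℤ) ^ 4 := by push_cast; ring
  obtain ⟨r, hr⟩ := exists_prim (q := q) (e := 8) (by omega) (by norm_num) (by omega)
  have h8 : 8 < r := prim_lt hr (by norm_num)
  have hrm : r ∣ q ^ 4 + 1 := by
    have := prim_dvd_8 hr
    rw [← hm] at this
    exact_mod_cast this
  obtain ⟨T, h1, h2', h3', h4, h5⟩ := H129.CycCard.card_F4_8 hK hm hr.prime (prim_dvd_8 hr) (by omega)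
  have hT : Nat.card ↥T = q ^ 4 + 1 := Nat.dvd_antisymm h2' (by rwa [one_mul] at h3')
  obtain ⟨A, hA⟩ := exists_torD (G := ↥(chevF4.group F)) (w := 8) h1 hT dvd_rfl
    (fun s hs hsn => ⟨8, big_F4_8 hK hm (prim8 hs h2 (by omega) hsn)⟩) hr.prime hrm
    (K := (q : ℤ) ^ 24 * ((q : ℤ) ^ 2 - 1) * ((q : ℤ) ^ 6 - 1) * ((q : ℤ) ^ 4 - 1) * ((q : ℤ) ^ 12 - 1))
    (by rw [ord_F4 hK, hm]; ring) (by push_cast; exact Kap.kap_F4_8 _ (prim_phi_8 hr)) h8
  exact ⟨T, of_torD hA⟩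

theorem t12 (hK : Fintype.card F = q) (h2 : q % 2 = 0) (h3 : 3 ≤ q) (h3q : ¬ 3 ∣ q) :
    ∃ T : Subgroup ↥(chevF4.group F), IsCyclic ↥T ∧ (∀ a ∈ T, ∀ b ∈ T, a * b = b * a) ∧
      Nat.card ↥T = q ^ 4 - q ^ 2 + 1 ∧
      (∀ a ∈ T, a ≠ 1 → centralizer ({a} : Set ↥(chevF4.group F)) = T) ∧
      T.relIndex (normalizer (T : Set ↥(chevF4.group F))) = 12 := by
  have hm : ((q ^ 4 - q ^ 2 + 1 : ℕ) : ℤ) = 1 - (q : ℤ) ^ 2 + (q : ℤ) ^ 4 := by
    have : q ^ 2 ≤ q ^ 4 := Nat.pow_le_pow_right (by omega) (by norm_num)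
    push_cast [Nat.cast_sub this]; ring
  obtain ⟨r, hr⟩ := exists_prim (q := q) (e := 12) (by omega) (by norm_num) (by omega)
  have h12 : 12 < r := prim_lt hr (by norm_num)
  have hrm : r ∣ q ^ 4 - q ^ 2 + 1 := by
    have := prim_dvd_12 hr
    rw [← hm] at this
    exact_mod_cast this
  obtain ⟨T, h1, h2', h3', h4, h5⟩ := H129.CycCard.card_F4_12 hK hm hr.prime (prim_dvd_12 hr)
  have hT : Nat.card ↥T = q ^ 4 - q ^ 2 + 1 := Nat.dvd_antisymm h2' (by rwa [one_mul] at h3')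
  obtain ⟨A, hA⟩ := exists_torD (G := ↥(chevF4.group F)) (w := 12) h1 hT dvd_rfl
    (fun s hs hsn => ⟨12, big_F4_12 hK hm (prim12 hs h2 h3q (by omega)
      (by rw [← hm]; exact_mod_cast hsn))⟩) hr.prime hrm
    (K := (q : ℤ) ^ 24 * ((q : ℤ) ^ 2 - 1) * ((q : ℤ) ^ 6 - 1) * ((q : ℤ) ^ 8 - 1) * ((q : ℤ) ^ 6 - 1) *
      ((q : ℤ) ^ 2 + 1))
    (by rw [ord_F4 hK, hm]; ring) (by push_cast; exact Kap.kap_F4_12 _ (prim_phi_12 hr)) h12
  exact ⟨T, of_torD hA⟩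

/-- `|F₄(q)|` -/
def N (q : ℕ) : ℕ := q ^ 24 * (q ^ 2 - 1) * (q ^ 6 - 1) * (q ^ 8 - 1) * (q ^ 12 - 1)

theorem card_N (hK : Fintype.card F = q) : Nat.card ↥(chevF4.group F) = N q := S1062.result hK

theorem n4a : ¬ 241 ^ 2 ∣ N 4 := by decide +kernel
theorem n8a : ¬ 37 ^ 2 ∣ N 8 := by decide +kernel
theorem n16a : ¬ 673 ^ 2 ∣ N 16 := by decide +kernel
theorem n64a : ¬ 38737 ^ 2 ∣ N 64 := by decide +kernel
theorem n4b : ¬ 257 ^ 2 ∣ N 4 := by decide +kernel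
theorem n8b : ¬ 241 ^ 2 ∣ N 8 := by decide +kernel
theorem n16b : ¬ 65537 ^ 2 ∣ N 16 := by decide +kernel
theorem n64b : ¬ 673 ^ 2 ∣ N 64 := by decide +kernel

/-- **The torus of order `q⁴ - q² + 1` of `F₄(q)`, `q = 4, 8, 16, 64`.** -/
theorem T12 (hq : q = 4 ∨ q = 8 ∨ q = 16 ∨ q = 64) (hK : Fintype.card F = q) :
    ∃ T : Subgroup ↥(chevF4.group F), IsCyclic ↥T ∧ (∀ a ∈ T, ∀ b ∈ T, a * b = b * a) ∧
      Nat.card ↥T = q ^ 4 - q ^ 2 + 1 ∧ (∀ a ∈ T, a ≠ 1 → centralizer ({a} : Set ↥(chevF4.group F)) ≤ T) ∧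
      T.relIndex (normalizer (T : Set ↥(chevF4.group F))) = 12 ∧
      ∀ (χ : IrrCharacter ↥(chevF4.group F)) (z : ℤ),
        (∀ a ∈ T, a ≠ 1 → (χ : ↥(chevF4.group F) → ℂ) a = z) → z = 0 ∨ z = 1 ∨ z = -1 := by
  obtain ⟨T, h1, h2, h3, h4, h5⟩ := t12 hK (by omega) (by omega) (by rcases hq with rfl | rfl | rfl | rfl <;> norm_num)
  have h4' : ∀ a ∈ T, a ≠ 1 → centralizer ({a} : Set ↥(chevF4.group F)) ≤ T := fun a ha ha1 => (h4 a ha ha1).le
  refine ⟨T, h1, h2, h3, h4', h5, ?_⟩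
  have hN := card_N hK
  rcases hq with rfl | rfl | rfl | rfl
  · exact fun χ z hz => H903.FFour.val_of_rel h2 h4' (r := 241) (by norm_num) (by rw [h3]; norm_num)
      (by rw [hN]; exact n4a) h5 (t := 20) (by norm_num) (by norm_num) χ z hz
  · exact fun χ z hz => H903.FFour.val_of_rel h2 h4' (r := 37) (by norm_num) (by rw [h3]; norm_num)
      (by rw [hN]; exact n8a) h5 (t := 3) (by norm_num) (by norm_num) χ z hz
  · exact fun χ z hz => H903.FFour.val_of_rel h2 h4' (r := 673) (by norm_num) (by rw [h3]; norm_num)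
      (by rw [hN]; exact n16a) h5 (t := 56) (by norm_num) (by norm_num) χ z hz
  · exact fun χ z hz => H903.FFour.val_of_rel h2 h4' (r := 38737) (by norm_num) (by rw [h3]; norm_num)
      (by rw [hN]; exact n64a) h5 (t := 3228) (by norm_num) (by norm_num) χ z hz

/-- **The torus of order `q⁴ + 1` of `F₄(q)`, `q = 4, 8, 16, 64`.** -/
theorem T8 (hq : q = 4 ∨ q = 8 ∨ q = 16 ∨ q = 64) (hK : Fintype.card F = q) :
    ∃ T : Subgroup ↥(chevF4.group F), IsCyclic ↥T ∧ (∀ a ∈ T, ∀ b ∈ T, a * b = b * a) ∧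
      Nat.card ↥T = q ^ 4 + 1 ∧ (∀ a ∈ T, a ≠ 1 → centralizer ({a} : Set ↥(chevF4.group F)) ≤ T) ∧
      T.relIndex (normalizer (T : Set ↥(chevF4.group F))) = 8 ∧
      ∀ (χ : IrrCharacter ↥(chevF4.group F)) (z : ℤ),
        (∀ a ∈ T, a ≠ 1 → (χ : ↥(chevF4.group F) → ℂ) a = z) → z = 0 ∨ z = 1 ∨ z = -1 := by
  obtain ⟨T, h1, h2, h3, h4, h5⟩ := t8 hK (by omega) (by omega)
  have h4' : ∀ a ∈ T, a ≠ 1 → centralizer ({a} : Set ↥(chevF4.group F)) ≤ T := fun a ha ha1 => (h4 a ha ha1).le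
  refine ⟨T, h1, h2, h3, h4', h5, ?_⟩
  have hN := card_N hK
  rcases hq with rfl | rfl | rfl | rfl
  · exact fun χ z hz => H903.FFour.val_of_rel h2 h4' (r := 257) (by norm_num) (by rw [h3]; norm_num)
      (by rw [hN]; exact n4b) h5 (t := 32) (by norm_num) (by norm_num) χ z hz
  · exact fun χ z hz => H903.FFour.val_of_rel h2 h4' (r := 241) (by norm_num) (by rw [h3]; norm_num)
      (by rw [hN]; exact n8b) h5 (t := 30) (by norm_num) (by norm_num) χ z hz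
  · exact fun χ z hz => H903.FFour.val_of_rel h2 h4' (r := 65537) (by norm_num) (by rw [h3]; norm_num)
      (by rw [hN]; exact n16b) h5 (t := 8192) (by norm_num) (by norm_num) χ z hz
  · exact fun χ z hz => H903.FFour.val_of_rel h2 h4' (r := 673) (by norm_num) (by rw [h3]; norm_num)
      (by rw [hN]; exact n64b) h5 (t := 84) (by norm_num) (by norm_num) χ z hz

end Cfsg.Agent.H406.FE
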